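import Mathlib
import Cfsg.Agent.H761.F2Basic

/-!
# The core of S3817 (helper761): an element lying in `F₂(⟨x,y⟩)` for all `y` and in `F₃(G)` lies in `F₂(G)`
-/

set_option autoImplicit false
set_option linter.unusedSectionVars false
set_option linter.style.haveILetI false

namespace Cfsg.Agent.H761.F2

open Subgroup Cfsg
open scoped commutatorElement

variable {G : Type*} [Group G] [Finite G]

/-- two normal subgroups meeting trivially commute -/
theorem comm_of_normal_disjoint {A B : Subgroup G} (hA : A.Normal) (hB : B.Normal) (h : ∀ g ∈ A, g ∈ B → g = 1)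
    {a b : G} (ha : a ∈ A) (hb : b ∈ B) : a * b = b * a := by
  have h1 : a * b * a⁻¹ * b⁻¹ ∈ B := mul_mem (hB.conj_mem b hb a) (inv_mem hb)
  have h2 : a * b * a⁻¹ * b⁻¹ ∈ A := by
    have e : a * b * a⁻¹ * b⁻¹ = a * (b * a⁻¹ * b⁻¹) := by group
    rw [e]
    exact mul_mem ha (hA.conj_mem _ (inv_mem ha) b)
  have h3 := h _ h2 h1
  calc a * b = (a * b * a⁻¹ * b⁻¹) * (b * a) := by group
    _ = b * a := by rw [h3, one_mul]

theorem eq_one_of_pow_coprime {r s : ℕ} (hr : r.Prime) (hs : s.Prime) (hrs : r ≠ s) {g : G} {i j : ℕ}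
    (h1 : g ^ r ^ i = 1) (h2 : g ^ s ^ j = 1) : g = 1 := by
  have h3 := orderOf_dvd_of_pow_eq_one h1
  have h4 := orderOf_dvd_of_pow_eq_one h2
  have h5 : (r ^ i).Coprime (s ^ j) := ((Nat.coprime_primes hr hs).2 hrs).pow i j
  have h6 : orderOf g ∣ 1 := by
    have := Nat.dvd_gcd h3 h4
    rwa [h5] at this
  exact orderOf_eq_one_iff.1 (Nat.dvd_one.1 h6)

/-- the derived subgroup of `⟨x, y⟩` is nilpotent (top version) -/
theorem commutator_le_fitting_top {r s : ℕ} (hr : r.Prime) (hs : s.Prime) (hrs : r ≠ s) {x y : G}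
    (hgen : closure ({x, y} : Set G) = ⊤) (h2 : InF2 ⊤ x) {k : ℕ} (hk : x ^ r ^ k = 1)
    {Y : Subgroup G} (hY : Y.Normal) (hy : y ∈ Y) (hYs : ∀ a ∈ Y, ∃ j : ℕ, a ^ s ^ j ∈ fittingSubgroup G) :
    ⁅(⊤ : Subgroup G), ⊤⁆ ≤ fittingSubgroup G := by
  set F := fittingSubgroup G with hF
  have h3 : QuotientGroup.mk' F x ∈ pCore r (G ⧸ F) := by
    refine mem_pCore_of_mem_fitting hr (inF2_top_iff.1 h2) (k := k) ?_
    rw [← map_pow, hk, map_one]
  have h4 : QuotientGroup.mk' F y ∈ Y.map (QuotientGroup.mk' F) := ⟨y, hy, rfl⟩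
  have hYn : (Y.map (QuotientGroup.mk' F)).Normal := hY.map _ (QuotientGroup.mk'_surjective _)
  have hcomm : QuotientGroup.mk' F x * QuotientGroup.mk' F y = QuotientGroup.mk' F y * QuotientGroup.mk' F x := by
    refine comm_of_normal_disjoint (Lib.Cores.pCore_normal r) hYn ?_ h3 h4
    rintro g hg ⟨a, ha, rfl⟩
    obtain ⟨i, hi⟩ := pow_mem_pCore hg
    obtain ⟨j, hj⟩ := hYs a ha
    refine eq_one_of_pow_coprime hr hs hrs hi (j := j) ?_
    rw [← map_pow]
    exact (QuotientGroup.eq_one_iff _).2 hj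
  have hgen' : closure ({QuotientGroup.mk' F x, QuotientGroup.mk' F y} : Set (G ⧸ F)) = ⊤ := by
    have h5 := congrArg (Subgroup.map (QuotientGroup.mk' F)) hgen
    rw [MonoidHom.map_closure, Set.image_pair, map_top_of_surjective _ (QuotientGroup.mk'_surjective _)] at h5
    exact h5
  have hab : ∀ a b : G ⧸ F, a * b = b * a := by
    have h6 : (⊤ : Subgroup (G ⧸ F)) ≤ centralizer {QuotientGroup.mk' F x} := by
      rw [← hgen', closure_le]
      rintro g (rfl | rfl)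
      · exact mem_centralizer_singleton_iff.2 rfl
      · exact mem_centralizer_singleton_iff.2 hcomm.symm
    have h7 : (⊤ : Subgroup (G ⧸ F)) ≤ centralizer {QuotientGroup.mk' F y} := by
      rw [← hgen', closure_le]
      rintro g (rfl | rfl)
      · exact mem_centralizer_singleton_iff.2 hcomm
      · exact mem_centralizer_singleton_iff.2 rfl
    intro a b
    have h8 : (⊤ : Subgroup (G ⧸ F)) ≤ centralizer {a} := by
      rw [← hgen', closure_le]
      rintro g (rfl | rfl)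
      · exact mem_centralizer_singleton_iff.2 (mem_centralizer_singleton_iff.1 (h6 (mem_top a))).symm
      · exact mem_centralizer_singleton_iff.2 (mem_centralizer_singleton_iff.1 (h7 (mem_top a))).symm
    exact (mem_centralizer_singleton_iff.1 (h8 (mem_top b))).symm
  rw [commutator_le]
  intro a _ b _
  have h9 : QuotientGroup.mk' F ⁅a, b⁆ = 1 := by
    rw [map_commutatorElement, commutatorElement_eq_one_iff_mul_comm]
    exact hab _ _
  exact (QuotientGroup.eq_one_iff _).1 h9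

/-- the derived subgroup of `L = ⟨x, y⟩` is nilpotent -/
theorem commutator_nilpotent {r s : ℕ} (hr : r.Prime) (hs : s.Prime) (hrs : r ≠ s) {x y : G}
    {L : Subgroup G} (hL : L = closure ({x, y} : Set G)) (h2 : InF2 L x) {k : ℕ} (hk : x ^ r ^ k = 1)
    {F Y : Subgroup G} (hF : F.Normal) (hFn : Group.IsNilpotent F)
    (hY : Y.Normal) (hy : y ∈ Y) (hYs : ∀ a ∈ Y, ∃ j : ℕ, a ^ s ^ j ∈ F) :
    Group.IsNilpotent (⁅L, L⁆ : Subgroup G) := by
  have hxL : x ∈ L := hL ▸ subset_closure (by simp)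
  have hyL : y ∈ L := hL ▸ subset_closure (by simp)
  have hgen : closure ({⟨x, hxL⟩, ⟨y, hyL⟩} : Set L) = ⊤ := by
    apply Subgroup.map_injective L.subtype_injective
    rw [MonoidHom.map_closure, Set.image_pair, ← MonoidHom.range_eq_map, range_subtype]
    exact hL.symm
  have hFL : F.subgroupOf L ≤ fittingSubgroup L := by
    refine Lib.Cores.le_fittingSubgroup inferInstance ?_
    have h1 : Group.IsNilpotent (F ⊓ L : Subgroup G) := by
      refine (isNilpotent_iff_lowerCentralSeries _).2 ?_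
      obtain ⟨n, hn⟩ := (isNilpotent_iff_lowerCentralSeries (S := F)).1 hFn
      exact ⟨n, le_bot_iff.1 (hn ▸ lowerCentralSeries_mono n inf_le_left)⟩
    have h2 : (F.subgroupOf L).map L.subtype = F ⊓ L := by
      rw [subgroupOf_map_subtype]
    refine (isNilpotent_iff_lowerCentralSeries _).2 ?_
    obtain ⟨n, hn⟩ := (isNilpotent_iff_lowerCentralSeries _).1 h1
    refine ⟨n, ?_⟩
    rw [← h2, ← map_lowerCentralSeries] at hn
    exact (Subgroup.map_eq_bot_iff_of_injective _ L.subtype_injective).1 hn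
  have h3 := commutator_le_fitting_top hr hs hrs hgen ((inF2_subtype hxL).2 h2) (k := k)
    (Subtype.ext (by simpa using hk)) (Y := Y.subgroupOf L) inferInstance (mem_subgroupOf.2 hy) (by
      intro a ha
      obtain ⟨j, hj⟩ := hYs a (mem_subgroupOf.1 ha)
      exact ⟨j, hFL (mem_subgroupOf.2 (by simpa using hj))⟩)
  have h4 : ⁅L, L⁆ = (⁅(⊤ : Subgroup L), ⊤⁆ : Subgroup L).map L.subtype := by
    rw [map_commutator, ← MonoidHom.range_eq_map, range_subtype]
  have h5 : Group.IsNilpotent (fittingSubgroup L) := Lib.Cores.fittingSubgroup_isNilpotent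
  obtain ⟨n, hn⟩ := (isNilpotent_iff_lowerCentralSeries _).1 h5
  refine (isNilpotent_iff_lowerCentralSeries _).2 ⟨n, ?_⟩
  have h6 : (⁅(⊤ : Subgroup L), ⊤⁆ : Subgroup L).lowerCentralSeries n = ⊥ :=
    le_bot_iff.1 (hn ▸ lowerCentralSeries_mono n h3)
  rw [h4, ← map_lowerCentralSeries, h6, Subgroup.map_bot]

/-- a map from a group to the cosets of `N` all whose fibres have at most `|N|` elements is surjective -/
theorem surj_of_fibers {F : Type*} [Group F] [Finite F] (N : Subgroup F) (φ : F → F ⧸ N)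
    (h : ∀ a, Nat.card {v // φ v = φ a} ≤ Nat.card N) : Function.Surjective φ := by
  classical
  haveI := Fintype.ofFinite F
  haveI : Fintype (F ⧸ N) := Fintype.ofFinite _
  have h1 : (Finset.univ : Finset F).card ≤ Nat.card N * ((Finset.univ : Finset F).image φ).card := by
    refine Finset.card_le_mul_card_image _ _ ?_
    intro a ha
    obtain ⟨b, -, rfl⟩ := Finset.mem_image.1 ha
    refine le_trans (le_of_eq ?_) (h b)
    rw [Nat.card_eq_fintype_card, Fintype.card_subtype]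
  have h2 := Subgroup.card_eq_card_quotient_mul_card_subgroup N
  rw [Finset.card_univ, ← Nat.card_eq_fintype_card, h2, mul_comm] at h1
  have h3 : Nat.card (F ⧸ N) ≤ ((Finset.univ : Finset F).image φ).card := Nat.le_of_mul_le_mul_left h1 Nat.card_pos
  have h4 : (Finset.univ : Finset F).image φ = Finset.univ := by
    apply Finset.eq_univ_of_card
    rw [← Nat.card_eq_fintype_card]
    refine le_antisymm ?_ h3
    rw [Nat.card_eq_fintype_card]
    exact Finset.card_le_univ _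
  intro q
  have h5 : q ∈ (Finset.univ : Finset F).image φ := by rw [h4]; exact Finset.mem_univ _
  obtain ⟨v, -, hv⟩ := Finset.mem_image.1 h5
  exact ⟨v, hv⟩

/-- two `s`-subgroups `S`, `T` with `F S = D = F T`, containing the `s`-elements of the normal subgroup `F`, are
conjugate under `F` -/
theorem conj_under {s : ℕ} (hs : s.Prime) {F D S T : Subgroup G} (hF : F.Normal) (hS : IsPGroup s S)
    (hT : IsPGroup s T) (hDS : F ⊔ S = D) (hDT : F ⊔ T = D)
    (hFS : ∀ f ∈ F, (∃ k : ℕ, f ^ s ^ k = 1) → f ∈ S) (hFT : ∀ f ∈ F, (∃ k : ℕ, f ^ s ^ k = 1) → f ∈ T) :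
    ∃ f ∈ F, ∀ g, g ∈ T ↔ f⁻¹ * g * f ∈ S := by
  haveI : Fact s.Prime := ⟨hs⟩
  have hSD : S ≤ D := hDS ▸ le_sup_right
  have hTD : T ≤ D := hDT ▸ le_sup_right
  have key : ∀ (S : Subgroup G), IsPGroup s S → F ⊔ S = D → (∀ f ∈ F, (∃ k : ℕ, f ^ s ^ k = 1) → f ∈ S) →
      ∃ P : Sylow s D, ∀ g : D, g ∈ P ↔ (g : G) ∈ S := by
    intro S hS hDS hFS
    have hSD : S ≤ D := hDS ▸ le_sup_right
    have h1 : IsPGroup s (S.subgroupOf D) := hS.comap_subtype
    obtain ⟨P, hP⟩ := h1.exists_le_sylow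
    refine ⟨P, fun g => ⟨fun hg => ?_, fun hg => hP hg⟩⟩
    have h2 : (g : G) ∈ F ⊔ S := hDS ▸ g.2
    obtain ⟨f, hf, σ, hσ, e⟩ := (Subgroup.mem_sup_of_normal_left).1 h2
    have h3 : (⟨σ, hSD hσ⟩ : D) ∈ P := hP (mem_subgroupOf.2 hσ)
    have h4 : g * (⟨σ, hSD hσ⟩ : D)⁻¹ ∈ P := mul_mem hg (inv_mem h3)
    obtain ⟨k, hk⟩ := P.isPGroup' ⟨_, h4⟩
    have h5 : f ∈ S := by
      refine hFS f hf ⟨k, ?_⟩
      have h6 := congrArg (fun z : P => ((z : D) : G)) hk
      have h7 : f = (g : G) * σ⁻¹ := by rw [← e]; group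
      rw [h7]
      simpa using h6
    rw [← e]
    exact mul_mem h5 hσ
  obtain ⟨P, hP⟩ := key S hS hDS hFS
  obtain ⟨Q, hQ⟩ := key T hT hDT hFT
  obtain ⟨d, hd⟩ := MulAction.exists_smul_eq D P Q
  have h2 : (d : G) ∈ F ⊔ S := hDS ▸ d.2
  obtain ⟨f, hf, σ, hσ, e⟩ := (Subgroup.mem_sup_of_normal_left).1 h2
  refine ⟨f, hf, fun g => ?_⟩
  have h8 : ∀ g : G, f⁻¹ * g * f ∈ S ↔ (d : G)⁻¹ * g * d ∈ S := by
    intro g
    have e2 : (d : G)⁻¹ * g * d = σ⁻¹ * (f⁻¹ * g * f) * σ := by rw [← e]; group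
    rw [e2]
    constructor
    · intro h; exact mul_mem (mul_mem (inv_mem hσ) h) hσ
    · intro h
      have := mul_mem (mul_mem hσ h) (inv_mem hσ)
      have e3 : σ * (σ⁻¹ * (f⁻¹ * g * f) * σ) * σ⁻¹ = f⁻¹ * g * f := by group
      rwa [e3] at this
  rw [h8]
  constructor
  · intro hg
    have h9 : (⟨g, hTD hg⟩ : D) ∈ Q := (hQ _).2 hg
    rw [← hd, ← SetLike.mem_coe, Sylow.coe_smul, Set.mem_smul_set] at h9
    obtain ⟨p, hp, e4⟩ := h9
    have h10 := (hP p).1 hp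
    have e5 : (d : G) * p * (d : G)⁻¹ = g := congrArg Subtype.val e4
    have e6 : (d : G)⁻¹ * g * d = p := by rw [← e5]; group
    rwa [e6]
  · intro hg
    have hgD : (d : G)⁻¹ * g * d ∈ D := hSD hg
    have hgD' : g ∈ D := by
      have := mul_mem (mul_mem d.2 hgD) (inv_mem d.2)
      have e3 : (d : G) * ((d : G)⁻¹ * g * d) * (d : G)⁻¹ = g := by group
      rwa [e3] at this
    have h9 : (⟨g, hgD'⟩ : D) ∈ Q := by
      rw [← hd, ← SetLike.mem_coe, Sylow.coe_smul, Set.mem_smul_set]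
      refine ⟨⟨_, hgD⟩, (hP _).2 hg, ?_⟩
      apply Subtype.ext
      change (d : G) * ((d : G)⁻¹ * g * d) * (d : G)⁻¹ = g
      group
    exact (hQ _).1 h9

theorem mem_normalizer_sup {A E : Subgroup G} (hA : A.Normal) {g : G} (hg : g ∈ normalizer (E : Set G)) :
    g ∈ normalizer ((A ⊔ E : Subgroup G) : Set G) := by
  have key : ∀ g : G, g ∈ normalizer (E : Set G) → ∀ a ∈ A ⊔ E, g * a * g⁻¹ ∈ A ⊔ E := by
    intro g hg a ha
    obtain ⟨f, hf, σ, hσ, rfl⟩ := (Subgroup.mem_sup_of_normal_left).1 ha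
    have e : g * (f * σ) * g⁻¹ = (g * f * g⁻¹) * (g * σ * g⁻¹) := by group
    rw [e]
    exact mul_mem ((le_sup_left : A ≤ _) (hA.conj_mem f hf g))
      ((le_sup_right : E ≤ _) ((mem_normalizer_iff.1 hg σ).1 hσ))
  rw [mem_normalizer_iff]
  intro a
  refine ⟨fun ha => key g hg a ha, fun ha => ?_⟩
  have := key g⁻¹ (inv_mem hg) _ ha
  have e : g⁻¹ * (g * a * g⁻¹) * g⁻¹⁻¹ = a := by group
  rwa [e] at this

/-- **Step C.** `x` an `r`-element with `x ∈ F₂(⟨x, v y⟩)` for all `v ∈ F`, where `F = F(G)`, and `y` in the preimage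
`Y` of `O_s(G/F)`, `s ≠ r`. Then `[x, y] ∈ F`. -/
theorem stepC {r s : ℕ} (hr : r.Prime) (hs : s.Prime) (hrs : r ≠ s) {x y : G} {k : ℕ} (hk : x ^ r ^ k = 1)
    {F : Subgroup G} (hFd : F = fittingSubgroup G)
    (hy : QuotientGroup.mk' (fittingSubgroup G) y ∈ pCore s (G ⧸ fittingSubgroup G))
    (h2 : ∀ v ∈ F, InF2 (closure ({x, v * y} : Set G)) x) : x⁻¹ * y⁻¹ * x * y ∈ F := by
  subst hFd
  set F := fittingSubgroup G with hF
  have hFn : F.Normal := Lib.Cores.fittingSubgroup_normal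
  have hFnil : Group.IsNilpotent F := Lib.Cores.fittingSubgroup_isNilpotent
  set Y : Subgroup G := (pCore s (G ⧸ F)).comap (QuotientGroup.mk' F) with hYdef
  have hYn : Y.Normal := (Lib.Cores.pCore_normal s).comap _
  have hFY : F ≤ Y := by
    intro f hf
    have h0 : QuotientGroup.mk' F f = 1 := (QuotientGroup.eq_one_iff f).2 hf
    change QuotientGroup.mk' F f ∈ pCore s (G ⧸ F)
    rw [h0]; exact one_mem _
  have hyY : y ∈ Y := hy
  have hYs : ∀ a ∈ Y, ∃ j : ℕ, a ^ s ^ j ∈ F := by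
    intro a ha
    obtain ⟨j, hj⟩ := pow_mem_pCore (show QuotientGroup.mk' F a ∈ pCore s (G ⧸ F) from ha)
    rw [← map_pow] at hj
    exact ⟨j, (QuotientGroup.eq_one_iff _).1 hj⟩
  obtain ⟨Fs, hFs1, hFs2⟩ := exists_sylow_of_nilpotent hFnil hs
  have hFsn : Fs.Normal := by
    refine ⟨fun a ha g => ?_⟩
    obtain ⟨h3, j, hj⟩ := (hFs2 a).1 ha
    exact (hFs2 _).2 ⟨hFn.conj_mem a h3 g, j, by rw [conj_pow, hj]; group⟩
  -- the common group `D`
  set L₀ : Subgroup (G ⧸ F) := closure {QuotientGroup.mk' F x, QuotientGroup.mk' F y} with hL₀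
  set D : Subgroup G := (⁅L₀, L₀⁆ : Subgroup (G ⧸ F)).comap (QuotientGroup.mk' F) with hD
  -- the subgroups `S_v`
  have hSv : ∀ v ∈ F, ∃ S : Subgroup G, IsPGroup s S ∧ (∀ f ∈ F, (∃ j : ℕ, f ^ s ^ j = 1) → f ∈ S) ∧ F ⊔ S = D ∧
      x ∈ normalizer (S : Set G) ∧ v * y ∈ normalizer (S : Set G) := by
    intro v hv
    set L : Subgroup G := closure ({x, v * y} : Set G) with hL
    have hxL : x ∈ L := subset_closure (by simp)
    have hyL : v * y ∈ L := subset_closure (by simp)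
    have hnil : Group.IsNilpotent (⁅L, L⁆ : Subgroup G) :=
      commutator_nilpotent hr hs hrs hL (h2 v hv) hk hFn hFnil hYn (mul_mem (hFY hv) hyY) hYs
    obtain ⟨E, hE1, hE2⟩ := exists_sylow_of_nilpotent hnil hs
    have hmap : (⁅L, L⁆ : Subgroup G).map (QuotientGroup.mk' F) = ⁅L₀, L₀⁆ := by
      have h3 : L.map (QuotientGroup.mk' F) = L₀ := by
        rw [hL, MonoidHom.map_closure, Set.image_pair, map_mul]
        have h0 : QuotientGroup.mk' F v = 1 := (QuotientGroup.eq_one_iff v).2 hv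
        rw [h0, one_mul]
      rw [map_commutator, h3]
    have hDe : F ⊔ (⁅L, L⁆ : Subgroup G) = D := by
      rw [hD, ← hmap, comap_map_eq, QuotientGroup.ker_mk', sup_comm]
    have hLLn : ∀ g ∈ L, ∀ a ∈ (⁅L, L⁆ : Subgroup G), g * a * g⁻¹ ∈ (⁅L, L⁆ : Subgroup G) := by
      intro g hg a ha
      have haL : a ∈ L := (commutator_le.2 fun p hp q hq => by
        rw [commutatorElement_def]
        exact mul_mem (mul_mem (mul_mem hp hq) (inv_mem hp)) (inv_mem hq) : (⁅L, L⁆ : Subgroup G) ≤ L) ha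
      have h4 : ⁅g, a⁆ ∈ (⁅L, L⁆ : Subgroup G) := commutator_mem_commutator hg haL
      have h5 : g * a * g⁻¹ = ⁅g, a⁆ * a := by rw [commutatorElement_def]; group
      rw [h5]
      exact mul_mem h4 ha
    have hEn : L ≤ normalizer (E : Set G) := by
      have h6 : ∀ g ∈ L, ∀ a ∈ E, g * a * g⁻¹ ∈ E := by
        intro g hg a ha
        obtain ⟨h3, j, hj⟩ := (hE2 a).1 ha
        exact (hE2 _).2 ⟨hLLn g hg a h3, j, by rw [conj_pow, hj]; group⟩
      intro g hg
      rw [mem_normalizer_iff]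
      intro a
      refine ⟨fun ha => h6 g hg a ha, fun ha => ?_⟩
      have := h6 g⁻¹ (inv_mem hg) _ ha
      have e : g⁻¹ * (g * a * g⁻¹) * g⁻¹⁻¹ = a := by group
      rwa [e] at this
    have hLY : (⁅L, L⁆ : Subgroup G) ≤ Y := by
      have h7 : ∀ g : G, ∀ a ∈ Y, ⁅g, a⁆ ∈ Y := by
        intro g a ha
        rw [commutatorElement_def]
        exact mul_mem (hYn.conj_mem a ha g) (inv_mem ha)
      -- the quotient by `Y` of `L` is cyclic
      have h8 : ∀ g ∈ L, ∃ i : ℤ, g * (x ^ i)⁻¹ ∈ Y := by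
        intro g hg
        rw [hL] at hg
        induction hg using closure_induction with
        | mem z hz =>
          rcases hz with rfl | rfl
          · exact ⟨1, by rw [zpow_one, mul_inv_cancel]; exact one_mem _⟩
          · refine ⟨0, ?_⟩
            rw [zpow_zero, inv_one, mul_one]
            exact mul_mem (hFY hv) hyY
        | one => exact ⟨0, by rw [zpow_zero, inv_one, mul_one]; exact one_mem _⟩
        | mul a b _ _ ha hb =>
          obtain ⟨i, hi⟩ := ha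
          obtain ⟨j, hj⟩ := hb
          refine ⟨i + j, ?_⟩
          have e : a * b * (x ^ (i + j))⁻¹ = (a * (x ^ i)⁻¹) * (x ^ i * (b * (x ^ j)⁻¹) * (x ^ i)⁻¹) := by
            rw [zpow_add]; group
          rw [e]
          exact mul_mem hi (hYn.conj_mem _ hj _)
        | inv a _ ha =>
          obtain ⟨i, hi⟩ := ha
          refine ⟨-i, ?_⟩
          have e : a⁻¹ * (x ^ (-i))⁻¹ = a⁻¹ * ((a * (x ^ i)⁻¹)⁻¹) * a⁻¹⁻¹ := by
            rw [zpow_neg]; group
          rw [e]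
          exact hYn.conj_mem _ (inv_mem hi) _
      rw [commutator_le]
      intro a ha b hb
      obtain ⟨i, hi⟩ := h8 a ha
      obtain ⟨j, hj⟩ := h8 b hb
      have h9 : QuotientGroup.mk' Y ⁅a, b⁆ = 1 := by
        have ea : QuotientGroup.mk' Y a = QuotientGroup.mk' Y (x ^ i) := by
          rw [← mul_inv_eq_one, ← map_inv, ← map_mul]
          exact (QuotientGroup.eq_one_iff _).2 hi
        have eb : QuotientGroup.mk' Y b = QuotientGroup.mk' Y (x ^ j) := by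
          rw [← mul_inv_eq_one, ← map_inv, ← map_mul]
          exact (QuotientGroup.eq_one_iff _).2 hj
        rw [map_commutatorElement, ea, eb, commutatorElement_eq_one_iff_mul_comm, ← map_mul, ← map_mul, ← zpow_add,
          ← zpow_add, add_comm]
      exact (QuotientGroup.eq_one_iff _).1 h9
    refine ⟨Fs ⊔ E, ?_, ?_, ?_, ?_, ?_⟩
    · haveI : Fact s.Prime := ⟨hs⟩
      exact IsPGroup.to_sup_of_normal_left hFs1 hE1
    · intro f hf hfs
      exact (le_sup_left : Fs ≤ Fs ⊔ E) ((hFs2 f).2 ⟨hf, hfs⟩)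
    · rw [← hDe]
      apply le_antisymm
      · refine sup_le le_sup_left (sup_le ?_ ?_)
        · exact le_trans (fun a ha => ((hFs2 a).1 ha).1) le_sup_left
        · exact le_trans (fun a ha => ((hE2 a).1 ha).1) le_sup_right
      · refine sup_le le_sup_left ?_
        intro a ha
        obtain ⟨u, w, e, hu, hw, ⟨i, hi⟩, hwc⟩ := exists_decomp a hs
        have hu' : u ∈ E := (hE2 u).2 ⟨(zpowers_le.2 ha) hu, i, hi⟩
        have hw' : w ∈ F := by
          obtain ⟨j, hj⟩ := hYs w (hLY ((zpowers_le.2 ha) hw))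
          have h10 : (orderOf w).Coprime (s ^ j) := hwc.pow_right j
          obtain ⟨m, hm⟩ := exists_pow_eq_self_of_coprime h10.symm
          rw [← hm]
          exact pow_mem hj m
        rw [e]
        exact mul_mem ((le_sup_right.trans le_sup_right : E ≤ F ⊔ (Fs ⊔ E)) hu') ((le_sup_left : F ≤ _) hw')
    · exact mem_normalizer_sup hFsn (hEn hxL)
    · exact mem_normalizer_sup hFsn (hEn hyL)
  choose! S hS1 hS2 hS3 hS4 hS5 using hSv
  have h1F : (1 : G) ∈ F := one_mem _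
  set S₀ := S 1 with hS₀
  have hx0 : x ∈ normalizer (S₀ : Set G) := hS4 1 h1F
  have hg : ∀ v ∈ F, ∃ f ∈ F, ∀ g, g ∈ S v ↔ f⁻¹ * g * f ∈ S₀ := fun v hv =>
    conj_under hs hFn (hS1 1 h1F) (hS1 v hv) (hS3 1 h1F) (hS3 v hv) (hS2 1 h1F) (hS2 v hv)
  choose! φ hφF hφ using hg
  have hnorm : ∀ v ∈ F, ∀ h : G, h ∈ normalizer (S v : Set G) → (φ v)⁻¹ * h * φ v ∈ normalizer (S₀ : Set G) := by
    intro v hv h hh
    rw [mem_normalizer_iff] at hh ⊢
    intro g
    have e1 := hφ v hv (φ v * g * (φ v)⁻¹)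
    have e2 := hφ v hv (h * (φ v * g * (φ v)⁻¹) * h⁻¹)
    have e3 : (φ v)⁻¹ * (φ v * g * (φ v)⁻¹) * φ v = g := by group
    have e4 : (φ v)⁻¹ * (h * (φ v * g * (φ v)⁻¹) * h⁻¹) * φ v =
      (φ v)⁻¹ * h * φ v * g * ((φ v)⁻¹ * h * φ v)⁻¹ := by group
    rw [e3] at e1
    rw [e4] at e2
    rw [← e1, ← e2]
    exact hh _
  have hshift : ∀ v ∈ F, ∀ u : G, (φ v)⁻¹ * u ∈ normalizer (S₀ : Set G) → ∀ g, g ∈ S v ↔ u⁻¹ * g * u ∈ S₀ := by
    intro v hv u hu g
    rw [hφ v hv, mem_normalizer_iff.1 hu (u⁻¹ * g * u)]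
    have e : (φ v)⁻¹ * u * (u⁻¹ * g * u) * ((φ v)⁻¹ * u)⁻¹ = (φ v)⁻¹ * g * φ v := by group
    rw [e]
  set N₀ : Subgroup F := (normalizer (S₀ : Set G)).subgroupOf F with hN₀
  set Φ : F → F ⧸ N₀ := fun v => QuotientGroup.mk ⟨φ v, hφF v v.2⟩ with hΦ
  have hsurj : Function.Surjective Φ := by
    apply surj_of_fibers
    intro a
    have hmem : ∀ v : {v // Φ v = Φ a}, (φ a)⁻¹ * ((v : F) * (a : G)⁻¹) * φ a ∈ normalizer (S₀ : Set G) := by
      rintro ⟨v, hv⟩
      apply hnorm a a.2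
      have h3 : (φ v)⁻¹ * φ a ∈ normalizer (S₀ : Set G) := by
        have := QuotientGroup.eq.1 hv
        rw [hN₀, mem_subgroupOf] at this
        simpa using this
      have h4 : S v = S a := by
        ext g
        rw [hshift v v.2 _ h3, hφ a a.2]
      have h5 := hS5 v v.2
      rw [h4] at h5
      have h6 := mul_mem h5 (inv_mem (hS5 a a.2))
      have e : (v : G) * y * ((a : G) * y)⁻¹ = v * (a : G)⁻¹ := by group
      rwa [e] at h6
    let ι : {v // Φ v = Φ a} → N₀ := fun v =>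
      ⟨⟨(φ a)⁻¹ * ((v : F) * (a : G)⁻¹) * φ a,
        mul_mem (mul_mem (inv_mem (hφF a a.2)) (mul_mem (v : F).2 (inv_mem a.2))) (hφF a a.2)⟩,
        mem_subgroupOf.2 (hmem v)⟩
    refine Nat.card_le_card_of_injective ι ?_
    intro v w hvw
    have h3 : (φ a)⁻¹ * ((v : F) * (a : G)⁻¹) * φ a = (φ a)⁻¹ * ((w : F) * (a : G)⁻¹) * φ a :=
      congrArg (fun z : N₀ => ((z : F) : G)) hvw
    have h4 := mul_right_cancel (mul_left_cancel (mul_right_cancel h3))
    exact Subtype.ext (Subtype.ext h4)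
  have hxu : ∀ u ∈ F, u⁻¹ * x * u ∈ normalizer (S₀ : Set G) := by
    intro u hu
    obtain ⟨v, hv⟩ := hsurj (QuotientGroup.mk ⟨u, hu⟩)
    have h3 : (φ v)⁻¹ * u ∈ normalizer (S₀ : Set G) := by
      have := QuotientGroup.eq.1 hv
      rw [hN₀, mem_subgroupOf] at this
      simpa using this
    have h4 := hshift v v.2 u h3
    have h5 := hS4 v v.2
    rw [mem_normalizer_iff] at h5 ⊢
    intro g
    have e1 := h4 (u * g * u⁻¹)
    have e2 := h4 (x * (u * g * u⁻¹) * x⁻¹)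
    have e3 : u⁻¹ * (u * g * u⁻¹) * u = g := by group
    have e4 : u⁻¹ * (x * (u * g * u⁻¹) * x⁻¹) * u = u⁻¹ * x * u * g * (u⁻¹ * x * u)⁻¹ := by group
    rw [e3] at e1
    rw [e4] at e2
    rw [← e1, ← e2]
    exact h5 _
  -- the contradiction
  by_contra hcF
  set c : G := x⁻¹ * y⁻¹ * x * y with hc
  have hcY : c ∈ Y := by
    have h3 : x⁻¹ * y⁻¹ * x ∈ Y := by
      have := hYn.conj_mem _ (inv_mem hyY) x⁻¹
      rwa [inv_inv] at this
    exact mul_mem h3 hyY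
  have hcD : c ∈ D := by
    change QuotientGroup.mk' F c ∈ (⁅L₀, L₀⁆ : Subgroup (G ⧸ F))
    have h3 : QuotientGroup.mk' F x ∈ L₀ := subset_closure (by simp)
    have h4 : QuotientGroup.mk' F y ∈ L₀ := subset_closure (by simp)
    have h5 := commutator_mem_commutator (inv_mem h3) (inv_mem h4)
    have e : QuotientGroup.mk' F c = ⁅(QuotientGroup.mk' F x)⁻¹, (QuotientGroup.mk' F y)⁻¹⁆ := by
      rw [hc, commutatorElement_def]; simp
    rwa [e]
  obtain ⟨f, hf, w, hw, hfw⟩ := (Subgroup.mem_sup_of_normal_left).1 ((hS3 1 h1F).symm ▸ hcD : c ∈ F ⊔ S₀)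
  have hwY : w ∈ Y := by
    have : w = f⁻¹ * c := by rw [← hfw]; group
    rw [this]
    exact mul_mem (inv_mem (hFY hf)) hcY
  have hwc : QuotientGroup.mk' F w = QuotientGroup.mk' F c := by
    rw [← hfw, map_mul]
    have h0 : QuotientGroup.mk' F f = 1 := (QuotientGroup.eq_one_iff f).2 hf
    rw [h0, one_mul]
  set z : G := x⁻¹ * w⁻¹ * x * w with hz
  have hzS : z ∈ S₀ := by
    have h3 : x⁻¹ * w⁻¹ * x ∈ S₀ := by
      have := (mem_normalizer_iff.1 (inv_mem hx0) w⁻¹).1 (inv_mem hw)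
      rwa [inv_inv] at this
    exact mul_mem h3 hw
  have hzY : z ∈ Y := by
    have h3 : x⁻¹ * w⁻¹ * x ∈ Y := by
      have := hYn.conj_mem _ (inv_mem hwY) x⁻¹
      rwa [inv_inv] at this
    exact mul_mem h3 hwY
  have hzF : z ∉ F := by
    intro hzF
    apply hcF
    set X := QuotientGroup.mk' F x with hX
    set C := QuotientGroup.mk' F c with hC
    have h3 : X⁻¹ * C⁻¹ * X * C = 1 := by
      have h4 : QuotientGroup.mk' F z = 1 := (QuotientGroup.eq_one_iff z).2 hzF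
      rw [hz] at h4
      simp only [map_mul, map_inv, hwc] at h4
      exact h4
    have hcomm : Commute X C := by
      have : C * X * (X⁻¹ * C⁻¹ * X * C) = X * C := by group
      rw [h3, mul_one] at this
      exact this.symm
    have h5 : X * C = (QuotientGroup.mk' F y)⁻¹ * X * QuotientGroup.mk' F y := by
      rw [hX, hC, hc]; simp only [map_mul, map_inv]; group
    have h6 : (X * C) ^ r ^ k = 1 := by
      have e : (QuotientGroup.mk' F y)⁻¹ * X * QuotientGroup.mk' F y =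
        (QuotientGroup.mk' F y)⁻¹ * X * (QuotientGroup.mk' F y)⁻¹⁻¹ := by group
      rw [h5, e, conj_pow, hX, ← map_pow, hk, map_one]; group
    have h7 : C ^ r ^ k = 1 := by
      rw [hcomm.mul_pow, hX, ← map_pow, hk, map_one, one_mul] at h6
      exact h6
    obtain ⟨j, hj⟩ := pow_mem_pCore (show C ∈ pCore s (G ⧸ F) from hcY)
    exact (QuotientGroup.eq_one_iff _).1 (eq_one_of_pow_coprime hr hs hrs h7 hj)
  apply hzF
  obtain ⟨i, hi⟩ := hS1 1 h1F ⟨z, hzS⟩
  have hi' : z ^ s ^ i = 1 := by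
    have := congrArg (fun q : S 1 => (q : G)) hi
    simpa using this
  have hz2 : InF2 ⊤ z := by
    rw [inF2_top_iff]
    haveI : Fact s.Prime := ⟨hs⟩
    exact Lib.Cores.pCore_le_fittingSubgroup s hzY
  refine mem_fitting_of_comm hs hz2 hi' ?_
  intro t ht hts v hv j hj
  obtain ⟨T, hT1, hT2⟩ := exists_sylow_of_nilpotent hFnil ht
  have hTn : T.Normal := by
    refine ⟨fun a ha g => ?_⟩
    obtain ⟨h3, j, hj⟩ := (hT2 a).1 ha
    exact (hT2 _).2 ⟨hFn.conj_mem a h3 g, j, by rw [conj_pow, hj]; group⟩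
  have hvT : v ∈ T := (hT2 v).2 ⟨hv, j, hj⟩
  have hcent : ∀ a ∈ T, a ∈ normalizer (S₀ : Set G) → ∀ σ ∈ S₀, a * σ = σ * a := by
    intro a ha han σ hσ
    have h3 : a * σ * a⁻¹ * σ⁻¹ ∈ S₀ := mul_mem ((mem_normalizer_iff.1 han σ).1 hσ) (inv_mem hσ)
    have h4 : a * σ * a⁻¹ * σ⁻¹ ∈ T := by
      have e : a * σ * a⁻¹ * σ⁻¹ = a * (σ * a⁻¹ * σ⁻¹) := by group
      rw [e]
      exact mul_mem ha (hTn.conj_mem _ (inv_mem ha) σ)
    obtain ⟨-, i₁, h5⟩ := (hT2 _).1 h4
    obtain ⟨i₂, h6⟩ := hS1 1 h1F ⟨_, h3⟩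
    have h7 : (a * σ * a⁻¹ * σ⁻¹) ^ s ^ i₂ = 1 := by
      have := congrArg (fun q : S 1 => (q : G)) h6
      simpa using this
    have h8 := eq_one_of_pow_coprime ht hs hts h5 h7
    calc a * σ = (a * σ * a⁻¹ * σ⁻¹) * (σ * a) := by group
      _ = σ * a := by rw [h8, one_mul]
  have hγ : ∀ a ∈ T, ∃ γ ∈ T, (∀ σ ∈ S₀, γ * σ = σ * γ) ∧ x⁻¹ * a * x = a * γ := by
    intro a ha
    have haF : a ∈ F := ((hT2 a).1 ha).1
    refine ⟨a⁻¹ * (x⁻¹ * a * x), ?_, ?_, by group⟩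
    · have := hTn.conj_mem a ha x⁻¹
      rw [inv_inv] at this
      exact mul_mem (inv_mem ha) this
    · apply hcent
      · have := hTn.conj_mem a ha x⁻¹
        rw [inv_inv] at this
        exact mul_mem (inv_mem ha) this
      · have h3 := mul_mem (inv_mem (hxu a haF)) hx0
        have e : (a⁻¹ * x * a)⁻¹ * x = a⁻¹ * (x⁻¹ * a * x) := by group
        rwa [e] at h3
  obtain ⟨γ₁, hγ₁T, hγ₁S, e₁⟩ := hγ (x * v * x⁻¹) (hTn.conj_mem v hvT x)
  have hb : w * v * w⁻¹ * γ₁⁻¹ ∈ T := mul_mem (hTn.conj_mem v hvT w) (inv_mem hγ₁T)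
  obtain ⟨γ₂, hγ₂T, hγ₂S, e₂⟩ := hγ _ hb
  have hwγ : γ₁ * w = w * γ₁ := hγ₁S w hw
  have hwγ2 : γ₂ * w = w * γ₂ := hγ₂S w hw
  have e3 : x * v * x⁻¹ = v * γ₁⁻¹ := by
    have : v = x * v * x⁻¹ * γ₁ := by rw [← e₁]; group
    calc x * v * x⁻¹ = (x * v * x⁻¹ * γ₁) * γ₁⁻¹ := by group
      _ = v * γ₁⁻¹ := by rw [← this]
  have e4 : w * (x * v * x⁻¹) * w⁻¹ = w * v * w⁻¹ * γ₁⁻¹ := by
    have h3 : γ₁⁻¹ * w⁻¹ = w⁻¹ * γ₁⁻¹ := by
      have := congrArg (fun q => q⁻¹) hwγ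
      simpa using this.symm
    rw [e3]
    calc w * (v * γ₁⁻¹) * w⁻¹ = w * v * (γ₁⁻¹ * w⁻¹) := by group
      _ = w * v * w⁻¹ * γ₁⁻¹ := by rw [h3]; group
  set c₄ : G := γ₁⁻¹ * γ₂ with hc₄
  have hc₄T : c₄ ∈ T := mul_mem (inv_mem hγ₁T) hγ₂T
  have hc₄S : ∀ σ ∈ S₀, c₄ * σ = σ * c₄ := by
    intro σ hσ
    have h3 := hγ₁S σ hσ
    have h4 := hγ₂S σ hσ
    have h5 : γ₁⁻¹ * σ = σ * γ₁⁻¹ := by
      calc γ₁⁻¹ * σ = γ₁⁻¹ * (σ * γ₁) * γ₁⁻¹ := by group
        _ = γ₁⁻¹ * (γ₁ * σ) * γ₁⁻¹ := by rw [h3]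
        _ = σ * γ₁⁻¹ := by group
    rw [hc₄, mul_assoc, h4, ← mul_assoc, h5, mul_assoc]
  have e5 : z⁻¹ * v * z = v * c₄ := by
    have h3 : z⁻¹ * v * z = w⁻¹ * (x⁻¹ * (w * (x * v * x⁻¹) * w⁻¹) * x) * w := by rw [hz]; group
    rw [h3, e4, e₂]
    have h4 : w⁻¹ * (w * v * w⁻¹ * γ₁⁻¹ * γ₂) * w = v * (w⁻¹ * (c₄ * w)) := by rw [hc₄]; group
    rw [h4, hc₄S w hw]; group
  have e6 : ∀ n : ℕ, (z ^ n)⁻¹ * v * z ^ n = v * c₄ ^ n := by
    intro n
    induction n with
    | zero => simp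
    | succ n ih =>
      have h3 : (z ^ (n + 1))⁻¹ * v * z ^ (n + 1) = z⁻¹ * ((z ^ n)⁻¹ * v * z ^ n) * z := by
        rw [pow_succ]; group
      have h4 : c₄ ^ n * z = z * c₄ ^ n := by
        have : Commute c₄ z := hc₄S z hzS
        exact (this.pow_left n).eq
      rw [h3, ih]
      calc z⁻¹ * (v * c₄ ^ n) * z = z⁻¹ * v * (c₄ ^ n * z) := by group
        _ = (z⁻¹ * v * z) * c₄ ^ n := by rw [h4]; group
        _ = v * c₄ ^ (n + 1) := by rw [e5, pow_succ']; group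
  have h7 : c₄ ^ s ^ i = 1 := by
    have := e6 (s ^ i)
    rw [hi', inv_one, one_mul, mul_one] at this
    exact (mul_eq_left (a := v)).1 this.symm
  obtain ⟨-, i₁, h8⟩ := (hT2 _).1 hc₄T
  have h9 : c₄ = 1 := eq_one_of_pow_coprime ht hs hts h8 h7
  rw [h9, mul_one] at e5
  calc z * v = z * (z⁻¹ * v * z) := by rw [e5]
    _ = v * z := by group

end Cfsg.Agent.H761.F2
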